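import Mathlib

/-!
# The arithmetic for Sylow 2-subgroups of order 8

Three integral functions `f₀, f₁, f₂` with Gram matrix `2 (1 + δ)`, orthogonal to the degree, and
`d = k + ∑ fᵢ zᵢ`: impossible if all degrees but one are at least 7.
-/

set_option autoImplicit false

namespace Cfsg.Agent.H609.HzArith

open Finset

variable {ι : Type*}

/-- The case distinction at the end. -/
theorem final {B : Finset ι} {d : ι → ℤ} {fa fb fc : ι → ℤ}
    (ha : ∑ χ ∈ B, fa χ ^ 2 = 3) (hb : ∑ χ ∈ B, fb χ ^ 2 = 3) (hc : ∑ χ ∈ B, fc χ ^ 2 = 3)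
    (la : ∑ χ ∈ B, fa χ = -1) (lb : ∑ χ ∈ B, fb χ = 1)
    (hd : ∀ χ ∈ B, d χ = 8 + 5 * fa χ - 3 * fb χ - 3 * fc χ) (h7 : ∀ χ ∈ B, 7 ≤ d χ) : False := by
  have hle : ∀ f : ι → ℤ, ∑ χ ∈ B, f χ ^ 2 = 3 → ∀ χ ∈ B, -1 ≤ f χ ∧ f χ ≤ 1 := by
    intro f hf χ hχ
    have h1 : f χ ^ 2 ≤ 3 := by
      rw [← hf]
      exact single_le_sum (f := fun χ => f χ ^ 2) (fun _ _ => sq_nonneg _) hχ
    constructor <;> nlinarith
  have key : ∀ χ ∈ B, fa χ ^ 2 - fa χ ≤ fb χ ^ 2 - fb χ := by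
    intro χ hχ
    obtain ⟨a1, a2⟩ := hle fa ha χ hχ
    obtain ⟨b1, b2⟩ := hle fb hb χ hχ
    obtain ⟨c1, c2⟩ := hle fc hc χ hχ
    have h1 := h7 χ hχ
    rw [hd χ hχ] at h1
    have hfb : 0 ≤ fb χ ^ 2 - fb χ := by
      rcases (show fb χ = -1 ∨ fb χ = 0 ∨ fb χ = 1 by omega) with h | h | h <;> rw [h] <;> norm_num
    rcases (show fa χ = -1 ∨ fa χ = 0 ∨ fa χ = 1 by omega) with h | h | h
    · have h2 : fb χ = -1 := by omega
      rw [h, h2]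
    · rw [h]; simpa using hfb
    · rw [h]; simpa using hfb
  have h2 := sum_le_sum key
  rw [sum_sub_distrib, sum_sub_distrib, ha, hb, la, lb] at h2
  norm_num at h2

theorem false_of_three {B : Finset ι} {d : ι → ℤ} {f : ι → ℤ}
    (hf : ∑ χ ∈ B, f χ ^ 2 = 3) (hdf : ∑ χ ∈ B, d χ * f χ = 1) (h7 : ∀ χ ∈ B, 7 ≤ d χ)
    (hl : ∑ χ ∈ B, f χ = 3) : False := by
  have h1 : ∑ χ ∈ B, (f χ ^ 2 - f χ) = 0 := by rw [sum_sub_distrib, hf, hl]; norm_num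
  have h0 : ∀ n : ℤ, 0 ≤ n ^ 2 - n := by
    intro n
    rcases le_or_gt n 0 with h | h
    · nlinarith
    · nlinarith
  have h2 : ∀ χ ∈ B, 0 ≤ f χ := by
    intro χ hχ
    have h3 := (sum_eq_zero_iff_of_nonneg (fun χ _ => h0 (f χ))).1 h1 χ hχ
    have h4 : f χ = f χ ^ 2 := by linarith
    rw [h4]
    positivity
  have h3 : 7 * ∑ χ ∈ B, f χ ≤ ∑ χ ∈ B, d χ * f χ := by
    rw [mul_sum]
    exact sum_le_sum fun χ hχ => mul_le_mul_of_nonneg_right (h7 χ hχ) (h2 χ hχ)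
  rw [hl, hdf] at h3
  norm_num at h3

theorem false_of_neg_three {B : Finset ι} {d : ι → ℤ} {f : ι → ℤ}
    (hf : ∑ χ ∈ B, f χ ^ 2 = 3) (hdf : ∑ χ ∈ B, d χ * f χ = 1) (h7 : ∀ χ ∈ B, 7 ≤ d χ)
    (hl : ∑ χ ∈ B, f χ = -3) : False := by
  have h1 : ∑ χ ∈ B, (f χ ^ 2 + f χ) = 0 := by rw [sum_add_distrib, hf, hl]; norm_num
  have h0 : ∀ n : ℤ, 0 ≤ n ^ 2 + n := by
    intro n
    rcases le_or_gt 0 n with h | h
    · nlinarith
    · nlinarith
  have h2 : ∀ χ ∈ B, f χ ≤ 0 := by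
    intro χ hχ
    have h3 := (sum_eq_zero_iff_of_nonneg (fun χ _ => h0 (f χ))).1 h1 χ hχ
    nlinarith [sq_nonneg (f χ)]
  have h3 : ∑ χ ∈ B, d χ * f χ ≤ 0 :=
    sum_nonpos fun χ hχ => mul_nonpos_of_nonneg_of_nonpos (by linarith [h7 χ hχ]) (h2 χ hχ)
  rw [hdf] at h3
  norm_num at h3

theorem abs_le {B : Finset ι} {f : ι → ℤ} (hf : ∑ χ ∈ B, f χ ^ 2 = 3) :
    -3 ≤ ∑ χ ∈ B, f χ ∧ ∑ χ ∈ B, f χ ≤ 3 ∧ Odd (∑ χ ∈ B, f χ) := by
  have h0 : ∀ n : ℤ, n ≤ n ^ 2 ∧ -n ≤ n ^ 2 := by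
    intro n
    constructor <;> rcases le_or_gt n 0 with h | h <;> nlinarith
  have h1 : ∑ χ ∈ B, f χ ≤ ∑ χ ∈ B, f χ ^ 2 := sum_le_sum fun χ _ => (h0 _).1
  have h2 : ∑ χ ∈ B, -f χ ≤ ∑ χ ∈ B, f χ ^ 2 := sum_le_sum fun χ _ => (h0 _).2
  rw [hf] at h1 h2
  rw [sum_neg_distrib] at h2
  refine ⟨by linarith, h1, ?_⟩
  have h3 : Even (∑ χ ∈ B, (f χ ^ 2 - f χ)) := by
    refine Finset.sum_induction _ (fun n : ℤ => Even n) (fun a b => Even.add) Even.zero ?_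
    intro χ _
    have : f χ ^ 2 - f χ = f χ * (f χ - 1) := by ring
    rw [this]
    exact Int.even_mul_pred_self _
  rw [sum_sub_distrib, hf] at h3
  rw [← Int.not_even_iff_odd]
  intro h4
  have h5 := h3.add h4
  rw [sub_add_cancel] at h5
  exact absurd h5 (by decide)

theorem false_of_gram [DecidableEq ι] {B : Finset ι} {o : ι} (ho : o ∈ B) {d : ι → ℤ} {f : Fin 3 → ι → ℤ}
    {z : Fin 3 → ℂ} {k : ℂ} (h1 : ∀ χ ∈ B, χ ≠ o → (d χ : ℂ) = k + ∑ i, (f i χ : ℂ) * z i)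
    (h2 : ∀ i, f i o = -1) (hd0 : d o = 1)
    (h3 : ∀ i j, ∑ χ ∈ B, f i χ * f j χ = 2 * (1 + if i = j then 1 else 0))
    (h4 : ∀ i, ∑ χ ∈ B, d χ * f i χ = 0) (h5 : ∑ i, z i = -1) (h6 : ∀ χ ∈ B, χ ≠ o → 7 ≤ d χ)
    (h7 : IsIntegral ℤ k) (h8 : 0 ≤ k.re) : False := by
  set B' := B.erase o with hB'
  have hmem : ∀ χ ∈ B', χ ∈ B ∧ χ ≠ o := fun χ hχ => ⟨mem_of_mem_erase hχ, ne_of_mem_erase hχ⟩
  have g3 : ∀ i j, ∑ χ ∈ B', f i χ * f j χ = 1 + if i = j then 2 else 0 := by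
    intro i j
    have := h3 i j
    rw [← add_sum_erase _ _ ho, h2, h2] at this
    split_ifs at this ⊢ <;> linarith
  have g3' : ∀ i, ∑ χ ∈ B', f i χ ^ 2 = 3 := by
    intro i
    have := g3 i i
    rw [if_pos rfl] at this
    simp only [pow_two]
    linarith
  have g4 : ∀ i, ∑ χ ∈ B', d χ * f i χ = 1 := by
    intro i
    have := h4 i
    rw [← add_sum_erase _ _ ho, h2, hd0] at this
    linarith
  set l : Fin 3 → ℤ := fun i => ∑ χ ∈ B', f i χ with hl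
  have e1 : ∀ i, k * (l i : ℂ) = 2 - 2 * z i := by
    intro i
    have c1 : ∑ χ ∈ B', (d χ : ℂ) * (f i χ : ℂ) = 1 := by exact_mod_cast g4 i
    have c2 : ∑ χ ∈ B', (d χ : ℂ) * (f i χ : ℂ) =
        k * (l i : ℂ) + ∑ j, z j * ((∑ χ ∈ B', f j χ * f i χ : ℤ) : ℂ) := by
      have : ∀ χ ∈ B', (d χ : ℂ) * (f i χ : ℂ) =
          k * (f i χ : ℂ) + ∑ j, z j * ((f j χ : ℂ) * (f i χ : ℂ)) := by
        intro χ hχ
        rw [h1 χ (hmem χ hχ).1 (hmem χ hχ).2, add_mul, sum_mul]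
        congr 1
        exact sum_congr rfl fun j _ => by ring
      rw [sum_congr rfl this, sum_add_distrib, ← mul_sum, sum_comm, hl]
      push_cast
      congr 1
      exact sum_congr rfl fun j _ => by rw [mul_sum]
    rw [c1] at c2
    have c3 : ∑ j, z j * ((∑ χ ∈ B', f j χ * f i χ : ℤ) : ℂ) = -1 + 2 * z i := by
      have : ∀ j ∈ (univ : Finset (Fin 3)), z j * ((∑ χ ∈ B', f j χ * f i χ : ℤ) : ℂ) =
          z j + (if j = i then 2 * z j else 0) := by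
        intro j _
        rw [g3 j i]
        split_ifs <;> push_cast <;> ring
      rw [sum_congr rfl this, sum_add_distrib, h5, sum_ite_eq' univ i]
      simp
    rw [c3] at c2
    linear_combination -c2
  set L : ℤ := l 0 + l 1 + l 2 with hL
  have hzs : z 0 + z 1 + z 2 = -1 := by rw [← h5, Fin.sum_univ_three]
  have e2 : k * (L : ℂ) = 8 := by
    rw [hL]
    push_cast
    linear_combination e1 0 + e1 1 + e1 2 - 2 * hzs
  obtain ⟨a0, b0, o0⟩ := abs_le (g3' 0)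
  obtain ⟨a1, b1, o1⟩ := abs_le (g3' 1)
  obtain ⟨a2, b2, o2⟩ := abs_le (g3' 2)
  have hLodd : Odd L := (o0.add_odd o1).add_odd o2
  have hL0 : (L : ℂ) ≠ 0 := by
    intro h0
    rw [h0, mul_zero] at e2
    norm_num at e2
  obtain ⟨m, hm⟩ : ∃ m : ℤ, k = m := by
    have hkrat : k = (((8 : ℚ) / L : ℚ) : ℂ) := by
      push_cast
      field_simp
      exact e2
    rw [hkrat] at h7
    have i1 : IsIntegral ℤ ((8 : ℚ) / L : ℚ) := by
      have i2 : IsIntegral ℤ (algebraMap ℚ ℂ ((8 : ℚ) / L : ℚ)) := h7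
      exact (isIntegral_algebraMap_iff (algebraMap ℚ ℂ).injective).1 i2
    obtain ⟨m, hm⟩ := IsIntegrallyClosed.isIntegral_iff.1 i1
    refine ⟨m, ?_⟩
    rw [hkrat, ← hm]
    simp
  have e3 : m * L = 8 := by
    rw [hm] at e2
    exact_mod_cast e2
  have hm0 : 0 ≤ m := by
    rw [hm] at h8
    simpa using h8
  have hLpos : 0 < L := by
    by_contra hcon
    push Not at hcon
    nlinarith
  have hL1 : L = 1 := by
    obtain ⟨r, hr⟩ := hLodd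
    have hdvd : L ∣ 8 := ⟨m, by rw [← e3]; ring⟩
    have hle := Int.le_of_dvd (by norm_num) hdvd
    rcases (show L = 1 ∨ L = 3 ∨ L = 5 ∨ L = 7 by omega) with h | h | h | h
    · exact h
    · rw [h] at hdvd; exact absurd hdvd (by decide)
    · rw [h] at hdvd; exact absurd hdvd (by decide)
    · rw [h] at hdvd; exact absurd hdvd (by decide)
  have hm8 : m = 8 := by rw [hL1] at e3; linarith
  have hz : ∀ i, z i = 1 - 4 * (l i : ℂ) := by
    intro i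
    have := e1 i
    rw [hm, hm8] at this
    push_cast at this
    linear_combination this / 2
  have hd : ∀ χ ∈ B', d χ = 8 + f 0 χ * (1 - 4 * l 0) + f 1 χ * (1 - 4 * l 1) + f 2 χ * (1 - 4 * l 2) := by
    intro χ hχ
    have := h1 χ (hmem χ hχ).1 (hmem χ hχ).2
    rw [Fin.sum_univ_three, hz 0, hz 1, hz 2, hm, hm8] at this
    have c : (d χ : ℂ) = ((8 + f 0 χ * (1 - 4 * l 0) + f 1 χ * (1 - 4 * l 1) + f 2 χ * (1 - 4 * l 2) : ℤ) : ℂ) := by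
      rw [this]; push_cast; ring
    exact_mod_cast c
  have h6' : ∀ χ ∈ B', 7 ≤ d χ := fun χ hχ => h6 χ (hmem χ hχ).1 (hmem χ hχ).2
  have hno : ∀ i, l i = 1 ∨ l i = -1 := by
    intro i
    obtain ⟨a, b, o⟩ := abs_le (g3' i)
    obtain ⟨r, hr⟩ := o
    have hr' : l i = 2 * r + 1 := hr
    have a' : -3 ≤ l i := a
    have b' : l i ≤ 3 := b
    rcases (show l i = 1 ∨ l i = -1 ∨ l i = 3 ∨ l i = -3 by omega) with h | h | h | h
    · exact Or.inl h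
    · exact Or.inr h
    · exact (false_of_three (g3' i) (g4 i) h6' h).elim
    · exact (false_of_neg_three (g3' i) (g4 i) h6' h).elim
  have hLe : l 0 + l 1 + l 2 = 1 := hL1
  rcases hno 0 with q0 | q0 <;> rcases hno 1 with q1 | q1 <;> rcases hno 2 with q2 | q2 <;>
    first
    | (exfalso; omega)
    | skip
  · exact final (g3' 2) (g3' 0) (g3' 1) q2 q0 (fun χ hχ => by rw [hd χ hχ, q0, q1, q2]; ring) h6'
  · exact final (g3' 1) (g3' 0) (g3' 2) q1 q0 (fun χ hχ => by rw [hd χ hχ, q0, q1, q2]; ring) h6'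
  · exact final (g3' 0) (g3' 1) (g3' 2) q0 q1 (fun χ hχ => by rw [hd χ hχ, q0, q1, q2]; ring) h6'

end Cfsg.Agent.H609.HzArith
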