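import Cfsg.Agent.H609.HzEight

/-!
# Herzog's theorem on the principal 2-block: elementary abelian Sylow 2-subgroup of order 8, the contradiction
-/

set_option autoImplicit false

open Cfsg Cfsg.Agent.Blocks Cfsg.Agent.Blocks.Basic Cfsg.Agent.Blocks.Local
open scoped ComplexConjugate

namespace Cfsg.Agent.H609.Hz

variable {G : Type*} [Group G] [Finite G] {M : Ideal AlgInt}

/-- Writing the values on a section in terms of the functions `ηᵢ`. -/
theorem section_formula (hM : IsPModular 2 M) {s : G} (hs : orderOf s = 2) {H : Subgroup G}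
    [Fintype H] (hH : H = Subgroup.centralizer ({s} : Set G)) {z : H}
    (hzc : z ∈ Subgroup.center H) (hz : orderOf z = 2) {X : Fin 4 → IrrCharacter H} {σ : Fin 4 → ℤ}
    (D : CData M z X σ) {μ : H →* ℂˣ} (hμz : (μ z : ℂ) = -1) (hμ : ∀ y : H, ¬ 2 ∣ orderOf y → μ y = 1)
    {ζ : IrrCharacter G} (hζ : ζ ∈ principalBlock M G) {y : H} (hy : ¬ 2 ∣ orderOf y) :
    (ζ : G → ℂ) (s * y) = ∑ i : Fin 3, fn X σ i.succ (fun y => (ζ : G → ℂ) (s * y)) *
      ((σ i.succ : ℂ) * (X i.succ : H → ℂ) y) := by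
  classical
  have hfin : Finite (IrrCharacter H) := Characters.Core.finite_irr
  have := Fintype.ofFinite (IrrCharacter H)
  have h1 := fun (y : H) hy => PrincipalInflate.section_eq hM s ⟨1, by rw [hs, pow_one]⟩ hH hζ y hy
  choose! a ha using fun (ξ : IrrCharacter H) (hξ : ξ ∈ principalBlock M H) =>
    exists_eq_X hM D hzc hz hμz hμ hξ
  set c : IrrCharacter H → ℂ := fun ξ =>
    classInner (fun c : H => (ζ : G → ℂ) (s * (c : G))) (ξ : H → ℂ) with hc
  set F : Finset (IrrCharacter H) := Finset.univ.filter (fun ξ => ξ ∈ principalBlock M H) with hF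
  set b : Fin 4 → ℂ := fun i => ∑ ξ ∈ F with a ξ = i, c ξ with hb
  have h2 : ∀ y : H, ¬ 2 ∣ orderOf y → (ζ : G → ℂ) (s * y) = ∑ i, b i * (X i : H → ℂ) y := by
    intro y hy
    rw [h1 y hy]
    have h3 : ∀ ξ ∈ F, c ξ * (ξ : H → ℂ) y = c ξ * (X (a ξ) : H → ℂ) y := by
      intro ξ hξ
      rw [ha ξ (Finset.mem_filter.1 hξ).2 y hy]
    rw [Finset.sum_congr rfl h3, ← Finset.sum_fiberwise F a]
    refine Finset.sum_congr rfl fun i _ => ?_
    rw [hb, Finset.sum_mul]
    refine Finset.sum_congr rfl fun ξ hξ => ?_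
    rw [(Finset.mem_filter.1 hξ).2]
  have h4 : ∀ i : Fin 3, fn X σ i.succ (fun y => (ζ : G → ℂ) (s * y)) = (σ i.succ : ℂ) * b i.succ - b 0 := by
    intro i
    rw [fn_congr h2 i.succ, fn_sum Finset.univ b (fun a => (X a : H → ℂ))]
    have h5 : ∀ a ∈ (Finset.univ : Finset (Fin 4)), b a * fn X σ i.succ (X a : H → ℂ) =
        (if a = i.succ then (σ i.succ : ℂ) * b a else 0) - (if a = 0 then b a else 0) := by
      intro a _
      rw [fn_X D hzc hz, cf]
      push_cast
      split_ifs <;> ring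
    rw [Finset.sum_congr rfl h5, Finset.sum_sub_distrib, Finset.sum_ite_eq', Finset.sum_ite_eq',
      if_pos (Finset.mem_univ _), if_pos (Finset.mem_univ _)]
  have h6 := D.rel y hy
  rw [Fin.sum_univ_succ, D.σ0] at h6
  rw [h2 y hy, Fin.sum_univ_succ]
  have h7 : ∀ i ∈ (Finset.univ : Finset (Fin 3)),
      fn X σ i.succ (fun y => (ζ : G → ℂ) (s * y)) * ((σ i.succ : ℂ) * (X i.succ : H → ℂ) y) =
      b i.succ * (X i.succ : H → ℂ) y - b 0 * ((σ i.succ : ℂ) * (X i.succ : H → ℂ) y) := by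
    intro i _
    rw [h4 i]
    have h8 : (σ i.succ : ℂ) * (σ i.succ : ℂ) = 1 := by exact_mod_cast D.σsq i.succ
    linear_combination b i.succ * (X i.succ : H → ℂ) y * h8
  rw [Finset.sum_congr rfl h7, Finset.sum_sub_distrib, ← Finset.mul_sum]
  push_cast at h6
  linear_combination b 0 * h6

/-- **Sylow 2-subgroup of order 8.** -/
theorem false_of_eight (hM : IsPModular 2 M) {u s v : G} {k : ℂ} (h : HypK M u k) (hk : k ≠ 0)
    (P : Sylow 2 G) (hP8 : Nat.card (P : Subgroup G) = 8) (hPe : ∀ a ∈ (P : Subgroup G), a * a = 1)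
    (hone : ∀ a b : G, orderOf a = 2 → orderOf b = 2 → IsConj a b) (hsP : s ∈ (P : Subgroup G))
    (hs : orderOf s = 2) (hsv : Commute s v) (hv : ¬ 2 ∣ orderOf v) (hu : u = s * v)
    {H : Subgroup G} (hH : H = Subgroup.centralizer ({s} : Set G)) (z : H) (hzs : (z : G) = s)
    [hn : (Subgroup.zpowers z).Normal]
    (hbar : ∀ a b : H ⧸ Subgroup.zpowers z, orderOf a = 2 → orderOf b = 2 → IsConj a b) : False := by
  classical
  have hMp := isPrime_of_isPModular hM
  have := Fintype.ofFinite H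
  have hfin : Finite (IrrCharacter G) := Characters.Core.finite_irr
  have := Fintype.ofFinite (IrrCharacter G)
  have hPcomm := Walter.AutFacts.comm_of_sq P hPe
  have hPH : (P : Subgroup G) ≤ H := by
    intro x hx
    rw [hH, Subgroup.mem_centralizer_singleton_iff]
    exact hPcomm x hx s hsP
  set PH : Sylow 2 H := P.subtype hPH with hPHdef
  have hPH8 : Nat.card (PH : Subgroup H) = 8 := by
    rw [← hP8]
    exact Nat.card_congr (Subgroup.subgroupOfEquivOfLe hPH).toEquiv
  have hPHe : ∀ a ∈ (PH : Subgroup H), a * a = 1 := by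
    intro a ha
    exact Subtype.ext (hPe a (Subgroup.mem_subgroupOf.1 ha))
  have hzc : z ∈ Subgroup.center H := by
    rw [Subgroup.mem_center_iff]
    intro g
    apply Subtype.ext
    rw [Subgroup.coe_mul, Subgroup.coe_mul, hzs]
    exact Subgroup.mem_centralizer_singleton_iff.1 (hH ▸ g.2)
  have hz : orderOf z = 2 := by rw [← Subgroup.orderOf_coe, hzs, hs]
  obtain ⟨X, σ, D⟩ := exists_cdata hM PH hPH8 hPHe hzc hz hbar
  obtain ⟨μ, hμz, hμ⟩ := exists_mu PH (Walter.AutFacts.comm_of_sq PH hPHe) hzc hz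
  have hvH : v ∈ H := by
    rw [hH, Subgroup.mem_centralizer_singleton_iff]
    exact hsv.symm.eq
  set v' : H := ⟨v, hvH⟩ with hv'
  have hv'o : ¬ 2 ∣ orderOf v' := by rw [← Subgroup.orderOf_coe]; exact hv
  -- the coefficients
  have hchar : ∀ (i : Fin 3) (ζ : IrrCharacter G), ∃ n : ℤ,
      fn X σ i.succ (fun y => (ζ : G → ℂ) (s * y)) = n := by
    intro i ζ
    obtain ⟨n, hn⟩ := exists_int D hzc hz hμz hμ
      (Characters.Core.isCharacter_comp H.subtype (irr_isCharacter ζ.2)) i.succ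
    refine ⟨n, ?_⟩
    rw [← hn]
    congr 1
    funext y
    rw [Function.comp_apply, Subgroup.subtype_apply, Subgroup.coe_mul, hzs]
  choose f hf using hchar
  -- the section formula
  have hsec : ∀ ζ : IrrCharacter G, ζ ∈ principalBlock M G → ∀ y : H, ¬ 2 ∣ orderOf y →
      (ζ : G → ℂ) (s * y) = ∑ i : Fin 3, (f i ζ : ℂ) * ((σ i.succ : ℂ) * (X i.succ : H → ℂ) y) := by
    intro ζ hζ y hy
    rw [section_formula hM hs hH hzc hz D hμz hμ hζ hy]
    exact Finset.sum_congr rfl fun i _ => by rw [hf]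
  set B := (principalBlock M G).toFinset with hB
  have hmem : ∀ ζ, ζ ∈ B ↔ ζ ∈ principalBlock M G := fun ζ => Set.mem_toFinset
  -- Gram matrix
  have hgram : ∀ i j : Fin 3, ∑ ζ ∈ B, f i ζ * f j ζ = 2 * (1 + if i = j then 1 else 0) := by
    intro i j
    have h1 := gram D hzc hz B (fun ζ y => (ζ : G → ℂ) (s * y)) (by
      intro y y' hy hy'
      have h2 := PrincipalSection.sum_principalBlock_section hM s ⟨1, by rw [hs, pow_one]⟩ hH y y' hy hy'
      rw [sum_block hM D hzc hz hμz hμ hy hy', finsum_mem_eq_toFinset_sum] at h2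
      exact h2) i.succ j.succ
    have h3 : ∀ ζ ∈ B, fn X σ i.succ (fun y => (ζ : G → ℂ) (s * y)) *
        conj (fn X σ j.succ (fun y => (ζ : G → ℂ) (s * y))) = ((f i ζ * f j ζ : ℤ) : ℂ) := by
      intro ζ _
      rw [hf, hf, map_intCast]
      push_cast
      rfl
    rw [Finset.sum_congr rfl h3] at h1
    have h4 : ∑ a, (cf σ a i.succ : ℂ) * (cf σ a j.succ : ℂ) = ((∑ a, cf σ a i.succ * cf σ a j.succ : ℤ) : ℂ) := by
      push_cast; rfl
    rw [h4, cf_gram D] at h1
    exact_mod_cast h1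
  -- the principal character
  have htriv : ∀ i : Fin 3, f i (triv G) = -1 := by
    intro i
    have h1 : fn X σ i.succ (fun y => ((triv G : IrrCharacter G) : G → ℂ) (s * y)) =
        fn X σ i.succ (X 0 : H → ℂ) := by
      rw [D.X0]; rfl
    rw [hf, fn_X D hzc hz] at h1
    have h2 : cf σ 0 i.succ = -1 := by
      rw [cf, if_neg (Fin.succ_ne_zero i).symm, if_pos rfl]; norm_num
    rw [h2] at h1
    exact_mod_cast h1
  -- orthogonality with the degrees
  have horth : ∀ i : Fin 3, ∑ ζ ∈ B, (charDegree (ζ : G → ℂ) : ℤ) * f i ζ = 0 := by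
    intro i
    have h1 : ∀ y ∈ oddSet H, ∑ ζ ∈ B, (charDegree (ζ : G → ℂ) : ℂ) * (ζ : G → ℂ) (s * y) = 0 := by
      intro y hy
      have hy' := mem_oddSet.1 hy
      have hcomm : Commute s (y : G) := by
        have h0 : (y : G) ∈ Subgroup.centralizer ({s} : Set G) := by
          rw [← hH]; exact y.2
        exact (Subgroup.mem_centralizer_singleton_iff.1 h0).symm
      have h2 : 2 ∣ orderOf (s * (y : G)) := by
        have h3 : Commute (s * (y : G)) ((y : G)⁻¹) := by
          have : Commute (s * (y : G)) (y : G) := hcomm.mul_left (Commute.refl _)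
          exact this.inv_right
        have h4 := h3.orderOf_mul_dvd_mul_orderOf
        rw [mul_inv_cancel_right, hs, orderOf_inv] at h4
        rcases (Nat.Prime.dvd_mul Nat.prime_two).1 h4 with h5 | h5
        · exact h5
        · rw [Subgroup.orderOf_coe] at h5
          exact absurd h5 hy'
      have h5 := S0907.result 2 M hM (principalBlock M G) PrincipalSection.isPBlock_principalBlock 1
        (s * (y : G)) (by rw [orderOf_one]; norm_num) h2
      rw [finsum_mem_eq_toFinset_sum] at h5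
      have h6 := congrArg conj h5
      rw [map_zero, map_sum] at h6
      rw [← h6]
      refine Finset.sum_congr rfl fun ζ _ => ?_
      rw [map_mul, Complex.conj_conj, irr_one_eq_charDegree ζ.2, map_natCast]
    have h7 : ∑ ζ ∈ B, (charDegree (ζ : G → ℂ) : ℂ) * (f i ζ : ℂ) = 0 := by
      have h8 : ∀ ζ ∈ B, (charDegree (ζ : G → ℂ) : ℂ) * (f i ζ : ℂ) =
          2 * (Nat.card H : ℂ)⁻¹ * ∑ y ∈ oddSet H, (charDegree (ζ : G → ℂ) : ℂ) * (ζ : G → ℂ) (s * y) *
            conj (phi X σ i.succ y) := by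
        intro ζ _
        rw [← hf, fn, mul_left_comm, Finset.mul_sum]
        congr 1
        exact Finset.sum_congr rfl fun y _ => by ring
      rw [Finset.sum_congr rfl h8, ← Finset.mul_sum, Finset.sum_comm]
      have h9 : ∀ y ∈ oddSet H, ∑ ζ ∈ B, (charDegree (ζ : G → ℂ) : ℂ) * (ζ : G → ℂ) (s * y) *
            conj (phi X σ i.succ y) = 0 := by
        intro y hy
        rw [← Finset.sum_mul, h1 y hy, zero_mul]
      rw [Finset.sum_congr rfl h9, Finset.sum_const_zero, mul_zero]
    exact_mod_cast h7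
  have hdtriv : (charDegree (triv G : G → ℂ) : ℤ) = 1 := by
    have h1 := irr_one_eq_charDegree (triv G).2
    rw [triv_apply] at h1
    exact_mod_cast h1.symm
  -- a non-principal member
  obtain ⟨χ₀, hχ₀, hχ₀1⟩ : ∃ χ ∈ principalBlock M G, χ ≠ triv G := by
    by_contra hcon
    push Not at hcon
    have h1 : B = {triv G} := by
      ext ζ
      rw [hmem, Finset.mem_singleton]
      exact ⟨hcon ζ, fun h => by rw [h]; exact triv_mem⟩
    have h2 := hgram 0 0
    rw [h1, Finset.sum_singleton, htriv, if_pos rfl] at h2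
    norm_num at h2
  have hk0 := h χ₀ hχ₀ hχ₀1
  refine HzArith.false_of_gram (B := B) (o := triv G) ((hmem _).2 triv_mem)
    (d := fun ζ => (charDegree (ζ : G → ℂ) : ℤ)) (f := f)
    (z := fun i => (σ i.succ : ℂ) * (X i.succ : H → ℂ) v') (k := k) ?_ htriv hdtriv hgram horth ?_ ?_ ?_ ?_
  · intro χ hχ hχ1
    have h1 := h χ ((hmem _).1 hχ) hχ1
    have h2 := hsec χ ((hmem _).1 hχ) v' hv'o
    change (χ : G → ℂ) (s * v) = _ at h2
    rw [← hu] at h2
    rw [← h2, ← h1, irr_one_eq_charDegree χ.2]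
    push_cast
    ring
  · have h1 := D.rel v' hv'o
    rw [Fin.sum_univ_succ, D.σ0, D.X0, triv_apply] at h1
    push_cast at h1
    linear_combination h1
  · intro χ hχ hχ1
    exact seven_le hP8 hPe hone hs (exists_apply_ne hM h hk P ((hmem _).1 hχ) hχ1)
  · rw [← hk0]
    exact (isIntegral_apply χ₀ 1).sub (isIntegral_apply χ₀ u)
  · have h1 := Characters.SchurBound.norm_le (irr_isCharacter χ₀.2) (irr_one_eq_charDegree χ₀.2) u
    rw [← hk0, Complex.sub_re, irr_one_eq_charDegree χ₀.2, Complex.natCast_re]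
    have h2 := Complex.re_le_norm ((χ₀ : G → ℂ) u)
    linarith

end Cfsg.Agent.H609.Hz
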