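import Cfsg.Prelude.Def_Blocks
import Cfsg.Prelude.Def_Solvable
import Cfsg.Agent.Lib.Cores
import Cfsg.Agent.Characters.Core
import Cfsg.Agent.Blocks.Basic
import Cfsg.Agent.Blocks.Local
import Cfsg.Agent.Blocks.PPart
import Cfsg.Agent.Blocks.PrincipalSection
import Cfsg.Agent.CharactersDeep.ModCongr
import Cfsg.Agent.S0907
import Cfsg.Agent.S0925
import Cfsg.Agent.S0938

/-!
# Herzog's theorem on the principal 2-block: the parity argument

If `χ(1) - χ(u) = k` for every non-principal `χ` in the principal 2-block and `u ∉ O(G)`, then every non-trivial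
2-element is conjugate to the 2-part of `u`.
-/

set_option autoImplicit false

open Cfsg Cfsg.Agent.Blocks Cfsg.Agent.Blocks.Basic Cfsg.Agent.Blocks.Local
open scoped ComplexConjugate

namespace Cfsg.Agent.H609.Hz

section General

variable {G : Type*} [Group G] [Finite G] {M : Ideal AlgInt}

/-- The principal character as a member of the principal block. -/
def triv (G : Type*) [Group G] : IrrCharacter G := ⟨fun _ => 1, isIrrCharacter_one⟩

theorem triv_apply (g : G) : (triv G : G → ℂ) g = 1 := rfl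

theorem triv_mem [M.IsPrime] : triv G ∈ principalBlock M G := PrincipalSection.one_mem_principalBlock

theorem ne_triv_iff {χ : IrrCharacter G} : χ ≠ triv G ↔ (χ : G → ℂ) ≠ fun _ => 1 := by
  rw [Ne, Ne, Subtype.ext_iff]
  rfl

/-- The hypothesis. -/
def HypK (M : Ideal AlgInt) (u : G) (k : ℂ) : Prop :=
  ∀ χ : IrrCharacter G, χ ∈ principalBlock M G → χ ≠ triv G → (χ : G → ℂ) 1 - (χ : G → ℂ) u = k

/-- `χ(y) - χ(1)` lies in the local ideal, `y` a 2-element. -/
theorem sub_mem_of_pElement (hM : IsPModular 2 M) (χ : IrrCharacter G) {y : G}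
    (hy : ∃ j : ℕ, orderOf y = 2 ^ j) : MemLocalIdeal M ((χ : G → ℂ) y - (χ : G → ℂ) 1) := by
  have h := CharactersDeep.ModCongr.memLocalIdeal_character_sub hM χ.2 y y
    (PPart.isPPart_of_isPGroup hy)
  rwa [inv_mul_cancel] at h

theorem eq_zero_imp (hM : IsPModular 2 M) {u : G} (h : HypK M u 0) : u ∈ pPrimeCore 2 G := by
  have hMp := isPrime_of_isPModular hM
  obtain ⟨K, hK, hKB, hKp, -, -⟩ := S0938.result 2 M hM (principalBlock M G)
    PrincipalSection.isPBlock_principalBlock (triv G) triv_mem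
  have h1 : u ∈ K := by
    rw [← SetLike.mem_coe, hKB]
    intro χ hχ
    by_cases hχ1 : χ = triv G
    · rw [hχ1]; rfl
    · have := h χ hχ hχ1
      exact (sub_eq_zero.1 this).symm
  exact Lib.Cores.le_pPrimeCore hK ((Nat.Prime.coprime_iff_not_dvd Nat.prime_two).2 hKp).symm h1

open Classical in
/-- For a non-trivial 2-element `y` the sum of `χ(1)`, `χ` in the principal block, is even. -/
theorem two_dvd_sum [Fintype (IrrCharacter G)] (hM : IsPModular 2 M) {y : G} (hy1 : y ≠ 1)
    (hy : ∃ j : ℕ, orderOf y = 2 ^ j) :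
    2 ∣ ∑ χ ∈ (principalBlock M G).toFinset, charDegree (χ : G → ℂ) := by
  have hMp := isPrime_of_isPModular hM
  have hyd : 2 ∣ orderOf y := by
    obtain ⟨j, hj⟩ := hy
    rcases j with _ | j
    · exact absurd (orderOf_eq_one_iff.1 hj) hy1
    · rw [hj, pow_succ]; exact dvd_mul_left _ _
  have h1 := S0907.result 2 M hM (principalBlock M G) PrincipalSection.isPBlock_principalBlock 1 y
    (by rw [orderOf_one]; norm_num) hyd
  rw [finsum_mem_eq_toFinset_sum] at h1
  have h2 : MemLocalIdeal M (∑ χ ∈ (principalBlock M G).toFinset,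
      ((χ : G → ℂ) 1 * (χ : G → ℂ) 1 - (χ : G → ℂ) 1 * conj ((χ : G → ℂ) y))) := by
    refine memLocalIdeal_sum fun χ _ => ?_
    rw [← mul_sub]
    refine memLocalIdeal_mul_left ?_ ?_
    · rw [irr_one_eq_charDegree χ.2]
      exact memLocalRing_natCast _
    · have h3 := sub_mem_of_pElement hM χ (y := y⁻¹) (by rwa [orderOf_inv])
      rw [Characters.Core.isCharacter_apply_inv (irr_isCharacter χ.2)] at h3
      exact memLocalIdeal_sub_comm h3
  rw [Finset.sum_sub_distrib, h1, sub_zero] at h2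
  have h3 : ∑ χ ∈ (principalBlock M G).toFinset, (χ : G → ℂ) 1 * (χ : G → ℂ) 1 =
      ((∑ χ ∈ (principalBlock M G).toFinset,
        charDegree (χ : G → ℂ) * charDegree (χ : G → ℂ) : ℕ) : ℂ) := by
    push_cast
    refine Finset.sum_congr rfl fun χ _ => ?_
    rw [irr_one_eq_charDegree χ.2]
  rw [h3, memLocalIdeal_natCast_iff hM] at h2
  have h4 : ∀ n : ℕ, n * n ≡ n [MOD 2] := by
    intro n
    rcases Nat.even_or_odd n with h | h
    · rw [Nat.ModEq, Nat.mul_mod, Nat.even_iff.1 h]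
    · rw [Nat.ModEq, Nat.mul_mod, Nat.odd_iff.1 h]
  have h5 : ∑ χ ∈ (principalBlock M G).toFinset, charDegree (χ : G → ℂ) * charDegree (χ : G → ℂ) ≡
      ∑ χ ∈ (principalBlock M G).toFinset, charDegree (χ : G → ℂ) [MOD 2] :=
    Nat.ModEq.sum fun χ _ => h4 _
  exact (Nat.modEq_zero_iff_dvd.1 (h5.symm.trans (Nat.modEq_zero_iff_dvd.2 h2)))

/-- **The parity argument.** -/
theorem isConj_of_hyp (hM : IsPModular 2 M) {u s : G} {k : ℂ} (h : HypK M u k) (hk : k ≠ 0)
    (hs : IsPPart 2 u s) {y : G} (hy1 : y ≠ 1) (hy : ∃ j : ℕ, orderOf y = 2 ^ j) : IsConj s y := by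
  classical
  have hMp := isPrime_of_isPModular hM
  have : Finite (IrrCharacter G) := Characters.Core.finite_irr
  have := Fintype.ofFinite (IrrCharacter G)
  by_contra hcon
  have hB : IsPBlock M (principalBlock M G) := PrincipalSection.isPBlock_principalBlock
  have hyp : IsPPart 2 y y := PPart.isPPart_of_isPGroup hy
  have h1p : IsPPart 2 (1 : G) 1 := PPart.isPPart_of_not_dvd (by rw [orderOf_one]; norm_num)
  have e1 := (S0925.result 2 M hM (G := G)).2 1 y 1 y h1p hyp
    (fun hc => hy1 (isConj_one_right.1 hc)) _ hB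
  have e2 := (S0925.result 2 M hM (G := G)).2 u y s y hs hyp hcon _ hB
  rw [finsum_mem_eq_toFinset_sum] at e1 e2
  have hι : triv G ∈ (principalBlock M G).toFinset := Set.mem_toFinset.2 triv_mem
  have e3 : ∑ χ ∈ (principalBlock M G).toFinset, ((χ : G → ℂ) 1 - (χ : G → ℂ) u) * (χ : G → ℂ) y⁻¹ = 0 := by
    simp only [sub_mul, Finset.sum_sub_distrib]
    rw [e1, e2, sub_zero]
  rw [← Finset.add_sum_erase _ _ hι, triv_apply, triv_apply, sub_self, zero_mul, zero_add] at e3
  have e4 : ∑ χ ∈ (principalBlock M G).toFinset.erase (triv G),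
      ((χ : G → ℂ) 1 - (χ : G → ℂ) u) * (χ : G → ℂ) y⁻¹ =
      k * ∑ χ ∈ (principalBlock M G).toFinset.erase (triv G), (χ : G → ℂ) y⁻¹ := by
    rw [Finset.mul_sum]
    refine Finset.sum_congr rfl fun χ hχ => ?_
    rw [h χ (Set.mem_toFinset.1 (Finset.mem_of_mem_erase hχ)) (Finset.ne_of_mem_erase hχ)]
  rw [e4] at e3
  have e5 := (mul_eq_zero.1 e3).resolve_left hk
  have e6 : ∑ χ ∈ (principalBlock M G).toFinset, (χ : G → ℂ) y⁻¹ = 1 := by
    rw [← Finset.add_sum_erase _ _ hι, e5, triv_apply, add_zero]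
  have e7 : MemLocalIdeal M (∑ χ ∈ (principalBlock M G).toFinset,
      ((χ : G → ℂ) y⁻¹ - (χ : G → ℂ) 1)) :=
    memLocalIdeal_sum fun χ _ => sub_mem_of_pElement hM χ (y := y⁻¹) (by rwa [orderOf_inv])
  rw [Finset.sum_sub_distrib, e6] at e7
  have e8 : ∑ χ ∈ (principalBlock M G).toFinset, (χ : G → ℂ) 1 =
      ((∑ χ ∈ (principalBlock M G).toFinset, charDegree (χ : G → ℂ) : ℕ) : ℂ) := by
    push_cast
    refine Finset.sum_congr rfl fun χ _ => ?_
    rw [irr_one_eq_charDegree χ.2]
  rw [e8] at e7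
  have e9 := (memLocalIdeal_natCast_iff hM _).2 (two_dvd_sum hM hy1 hy)
  exact not_memLocalIdeal_one (M := M) ((memLocalIdeal_iff_of_sub e7).2 e9)

end General

end Cfsg.Agent.H609.Hz
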